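import Cfsg.Agent.H486.RV.Num

/-!
# TEAM RV, AO-PSU (helper486): block diagonal unitary matrices over the fixed field

* `blk` : `GU_a × GU_b → GU_n`, `a + b = n`;
* `exists_Y` : the subgroup of `GU_n(F)` of the matrices with entries in the fixed field commuting with
  `diag(1,...,1,-1,...,-1)` has odd index, if `a = 2^t`, `n = a N`, `N` odd.
-/

set_option autoImplicit false

namespace Cfsg.Agent.H486.RV

open Cfsg Cfsg.Agent.H751.Big Matrix
open Cfsg.Agent.S2677 (fixF mem_fixF mem_GU mem_GU_map pow_fix)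

section Blk

variable {K : Type*} [Field K] {q a b n : ℕ}

/-- the index of the blocks -/
def blkE (h : a + b = n) : Fin a ⊕ Fin b ≃ Fin n := finSumFinEquiv.trans (finCongr h)

theorem blkE_inl (h : a + b = n) (i : Fin a) : ((blkE h (Sum.inl i) : Fin n) : ℕ) = i := by
  simp [blkE]

theorem blkE_inr (h : a + b = n) (i : Fin b) : ((blkE h (Sum.inr i) : Fin n) : ℕ) = a + i := by
  simp [blkE]

/-- block diagonal matrices -/
def blkM (h : a + b = n) (A : Matrix (Fin a) (Fin a) K) (B : Matrix (Fin b) (Fin b) K) : Matrix (Fin n) (Fin n) K :=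
  (fromBlocks A 0 0 B).submatrix (blkE h).symm (blkE h).symm

theorem blkM_mul (h : a + b = n) (A A' : Matrix (Fin a) (Fin a) K) (B B' : Matrix (Fin b) (Fin b) K) :
    blkM h A B * blkM h A' B' = blkM h (A * A') (B * B') := by
  rw [blkM, blkM, submatrix_mul_equiv, fromBlocks_multiply, blkM]
  simp

theorem blkM_one (h : a + b = n) : blkM h (1 : Matrix (Fin a) (Fin a) K) (1 : Matrix (Fin b) (Fin b) K) = 1 := by
  rw [blkM, fromBlocks_one, submatrix_one_equiv]

theorem blkM_transpose (h : a + b = n) (A : Matrix (Fin a) (Fin a) K) (B : Matrix (Fin b) (Fin b) K) :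
    (blkM h A B)ᵀ = blkM h Aᵀ Bᵀ := by
  rw [blkM, transpose_submatrix, fromBlocks_transpose, transpose_zero, transpose_zero, blkM]

theorem blkM_map (h : a + b = n) (A : Matrix (Fin a) (Fin a) K) (B : Matrix (Fin b) (Fin b) K) (f : K → K)
    (hf : f 0 = 0) : (blkM h A B).map f = blkM h (A.map f) (B.map f) := by
  rw [blkM, ← submatrix_map, fromBlocks_map, blkM]
  congr 2 <;> ext i j <;> simp [hf]

theorem blkM_injective (h : a + b = n) {A A' : Matrix (Fin a) (Fin a) K} {B B' : Matrix (Fin b) (Fin b) K}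
    (hh : blkM h A B = blkM h A' B') : A = A' ∧ B = B' := by
  have h1 : fromBlocks A 0 0 B = fromBlocks A' 0 0 B' := by
    ext i j
    have := congrFun (congrFun hh (blkE h i)) (blkE h j)
    simpa [blkM] using this
  have h2 := fromBlocks_inj.1 h1
  exact ⟨h2.1, h2.2.2.2⟩

/-- the diagonal matrix of a block scalar -/
theorem blkM_diagonal (h : a + b = n) (c d : K) :
    blkM h (diagonal fun _ => c) (diagonal fun _ => d) = diagonal fun i : Fin n => if (i : ℕ) < a then c else d := by
  ext i j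
  obtain ⟨i, rfl⟩ := (blkE h).surjective i
  obtain ⟨j, rfl⟩ := (blkE h).surjective j
  rw [blkM, submatrix_apply, Equiv.symm_apply_apply, Equiv.symm_apply_apply, diagonal_apply]
  rcases i with i | i <;> rcases j with j | j
  · rw [fromBlocks_apply₁₁, diagonal_apply, blkE_inl, if_pos i.2]
    simp
  · rw [fromBlocks_apply₁₂, if_neg (fun h0 => Sum.inl_ne_inr ((blkE h).injective h0))]
    rfl
  · rw [fromBlocks_apply₂₁, if_neg (fun h0 => Sum.inr_ne_inl ((blkE h).injective h0))]
    rfl
  · rw [fromBlocks_apply₂₂, diagonal_apply, blkE_inr, if_neg (show ¬ (a + (i : ℕ) < a) by omega)]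
    simp

end Blk

section Main

variable {F : Type*} [Field F] [Fintype F] {q a b n : ℕ}

/-- the block embedding -/
noncomputable def blk (hF : Fintype.card F = q ^ 2) (h : a + b = n) : GU a F q × GU b F q →* GU n F q :=
  MonoidHom.mk' (fun x => ⟨⟨blkM h ((x.1 : GL (Fin a) F) : Matrix (Fin a) (Fin a) F) ((x.2 : GL (Fin b) F) : Matrix _ _ F),
      blkM h ((x.1⁻¹ : GL (Fin a) F) : Matrix (Fin a) (Fin a) F) ((x.2⁻¹ : GL (Fin b) F) : Matrix _ _ F),
      by
        rw [blkM_mul, ← Units.val_mul, ← Units.val_mul, mul_inv_cancel, mul_inv_cancel]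
        exact blkM_one h,
      by
        rw [blkM_mul, ← Units.val_mul, ← Units.val_mul, inv_mul_cancel, inv_mul_cancel]
        exact blkM_one h⟩, by
      have hq : q ≠ 0 := by
        rintro rfl
        have : 0 < Fintype.card F := Fintype.card_pos
        rw [hF] at this
        simp at this
      rw [mem_GU hF]
      change (blkM h _ _)ᵀ * (blkM h _ _).map _ = 1
      rw [blkM_transpose, blkM_map _ _ _ _ (zero_pow hq), blkM_mul, (mem_GU hF _).1 x.1.2, (mem_GU hF _).1 x.2.2,
        blkM_one]⟩) (by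
    intro x y
    apply Subtype.ext
    apply Units.ext
    exact (blkM_mul h _ _ _ _).symm)

theorem coe_blk (hF : Fintype.card F = q ^ 2) (h : a + b = n) (x : GU a F q × GU b F q) :
    (((blk hF h x : GU n F q) : GL (Fin n) F) : Matrix (Fin n) (Fin n) F) =
      blkM h ((x.1 : GL (Fin a) F) : Matrix (Fin a) (Fin a) F) ((x.2 : GL (Fin b) F) : Matrix _ _ F) := rfl

theorem blk_injective (hF : Fintype.card F = q ^ 2) (h : a + b = n) : Function.Injective (blk (F := F) hF h) := by
  rintro ⟨A, B⟩ ⟨A', B'⟩ hh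
  have h1 := congrArg (fun g : GU n F q => ((g : GL (Fin n) F) : Matrix (Fin n) (Fin n) F)) hh
  have h2 := blkM_injective h h1
  exact Prod.ext (Subtype.ext (Units.ext h2.1)) (Subtype.ext (Units.ext h2.2))

/-- the embedding of the unitary group over the fixed field -/
noncomputable def emb (n : ℕ) {σ : F ≃+* F} {q₀ : ℕ} [Fintype (fixF σ)] (hF : Fintype.card F = q ^ 2)
    (hk : Fintype.card (fixF σ) = q₀ ^ 2) (hpow : ∀ x : fixF σ, x ^ q = x ^ q₀) : GU n (fixF σ) q₀ →* GU n F q :=
  ((GeneralLinearGroup.map (n := Fin n) (fixF σ).subtype).comp (GU n (fixF σ) q₀).subtype).codRestrict (GU n F q)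
    (fun A => (mem_GU_map hF hk hpow _).1 A.2)

theorem coe_emb {σ : F ≃+* F} {q₀ : ℕ} [Fintype (fixF σ)] (hF : Fintype.card F = q ^ 2)
    (hk : Fintype.card (fixF σ) = q₀ ^ 2) (hpow : ∀ x : fixF σ, x ^ q = x ^ q₀) (A : GU n (fixF σ) q₀) :
    (((emb n hF hk hpow A : GU n F q) : GL (Fin n) F) : Matrix (Fin n) (Fin n) F) =
      ((A : GL (Fin n) (fixF σ)) : Matrix (Fin n) (Fin n) (fixF σ)).map (fixF σ).subtype := rfl

theorem emb_injective {σ : F ≃+* F} {q₀ : ℕ} [Fintype (fixF σ)] (hF : Fintype.card F = q ^ 2)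
    (hk : Fintype.card (fixF σ) = q₀ ^ 2) (hpow : ∀ x : fixF σ, x ^ q = x ^ q₀) :
    Function.Injective (emb n hF hk hpow) := by
  intro A B h
  have h1 := congrArg (fun g : GU n F q => ((g : GL (Fin n) F) : Matrix (Fin n) (Fin n) F)) h
  exact Subtype.ext (Units.ext (Matrix.map_injective (fixF σ).subtype_injective h1))

/-- fixed by `σ` and commuting with the diagonal matrix `diag(1,...,1,-1,...,-1)` -/
def YP (σ : F ≃+* F) (a : ℕ) (M : Matrix (Fin n) (Fin n) F) : Prop :=
  M.map σ = M ∧ M * (diagonal fun i : Fin n => if (i : ℕ) < a then (1 : F) else -1) =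
    (diagonal fun i : Fin n => if (i : ℕ) < a then (1 : F) else -1) * M

omit [Fintype F] in
theorem YP.mul {σ : F ≃+* F} {M N : Matrix (Fin n) (Fin n) F} (hM : YP σ a M) (hN : YP σ a N) : YP σ a (M * N) := by
  refine ⟨?_, ?_⟩
  · have h1 : (M * N).map σ = M.map σ * N.map σ := Matrix.map_mul (f := (σ : F →+* F))
    rw [h1, hM.1, hN.1]
  · rw [mul_assoc, hN.2, ← mul_assoc, hM.2, mul_assoc]

/-- the subgroup `Y` of `GU_n` -/
def YG (n : ℕ) (σ : F ≃+* F) (q a : ℕ) : Subgroup (GU n F q) where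
  carrier := {g | YP σ a ((g : GL (Fin n) F) : Matrix (Fin n) (Fin n) F)}
  one_mem' := by
    refine ⟨?_, ?_⟩
    · change (1 : Matrix (Fin n) (Fin n) F).map σ = 1
      ext i j
      by_cases hij : i = j <;> simp [Matrix.one_apply, hij]
    · change (1 : Matrix (Fin n) (Fin n) F) * _ = _ * (1 : Matrix (Fin n) (Fin n) F)
      rw [one_mul, mul_one]
  mul_mem' := fun h h' => YP.mul h h'
  inv_mem' := by
    rintro g ⟨h1, h2⟩
    set M := ((g : GL (Fin n) F) : Matrix (Fin n) (Fin n) F) with hM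
    set N := (((g⁻¹ : GU n F q) : GL (Fin n) F) : Matrix (Fin n) (Fin n) F) with hN
    have hMN : M * N = 1 := by
      have : ((g * g⁻¹ : GU n F q) : GL (Fin n) F) = 1 := by rw [mul_inv_cancel]; rfl
      exact congrArg Units.val this
    have hNM : N * M = 1 := by
      have : ((g⁻¹ * g : GU n F q) : GL (Fin n) F) = 1 := by rw [inv_mul_cancel]; rfl
      exact congrArg Units.val this
    refine ⟨?_, ?_⟩
    · have h3 : (M * N).map σ = M.map σ * N.map σ := Matrix.map_mul (f := (σ : F →+* F))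
      have h4 : (1 : Matrix (Fin n) (Fin n) F).map σ = 1 := by
        ext i j
        by_cases hij : i = j <;> simp [Matrix.one_apply, hij]
      rw [hMN, h4, h1] at h3
      calc N.map σ = N * M * N.map σ := by rw [hNM, one_mul]
        _ = N := by rw [mul_assoc, ← h3, mul_one]
    · set D : Matrix (Fin n) (Fin n) F := diagonal fun i : Fin n => if (i : ℕ) < a then (1 : F) else -1
      calc N * D = N * D * (M * N) := by rw [hMN, mul_one]
        _ = N * (D * M) * N := by simp only [mul_assoc]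
        _ = N * (M * D) * N := by rw [h2]
        _ = N * M * (D * N) := by simp only [mul_assoc]
        _ = D * N := by rw [hNM, one_mul]

omit [Fintype F] in
theorem mem_YG {σ : F ≃+* F} {g : GU n F q} :
    g ∈ YG n σ q a ↔ YP σ a ((g : GL (Fin n) F) : Matrix (Fin n) (Fin n) F) := Iff.rfl

/-- **the index of `Y` is odd** -/
theorem odd_index {σ : F ≃+* F} {q₀ m t N : ℕ} (hF : Fintype.card F = q ^ 2) (hq : Odd q) (hm : Odd m)
    (hqm : q = q₀ ^ m) (hk : Nat.card (fixF σ) = q₀ ^ 2) (hN : Odd N) (hn : n = 2 ^ t * N) :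
    Odd (YG n σ q (2 ^ t)).index := by
  classical
  have : Fact (Nat.Prime 2) := ⟨Nat.prime_two⟩
  have : Fintype (fixF σ) := Fintype.ofFinite _
  rw [Nat.card_eq_fintype_card] at hk
  have hpow : ∀ x : fixF σ, x ^ q = x ^ q₀ := fun x => by rw [hqm]; exact pow_fix hk hm x
  have hq0 : Odd q₀ := by
    rw [hqm] at hq
    rcases Nat.even_or_odd q₀ with h | h
    · have hm0 : m ≠ 0 := by rcases hm with ⟨j, hj⟩; omega
      exact absurd (h.pow_of_ne_zero hm0) (Nat.not_even_iff_odd.2 hq)
    · exact h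
  have h1q : 1 < q₀ := Cfsg.Agent.LieClassical.GUOrder.two_le hk
  have hle : 2 ^ t ≤ n := by
    rw [hn]
    exact Nat.le_mul_of_pos_right _ hN.pos
  have hab : 2 ^ t + (n - 2 ^ t) = n := by omega
  -- the embedding
  let f : GU (2 ^ t) (fixF σ) q₀ × GU (n - 2 ^ t) (fixF σ) q₀ →* GU n F q :=
    (blk hF hab).comp (MonoidHom.prodMap (emb (2 ^ t) hF hk hpow) (emb (n - 2 ^ t) hF hk hpow))
  have hf : Function.Injective f :=
    (blk_injective hF hab).comp (Function.Injective.prodMap (emb_injective hF hk hpow) (emb_injective hF hk hpow))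
  have hfY : f.range ≤ YG n σ q (2 ^ t) := by
    rintro _ ⟨x, rfl⟩
    rw [mem_YG]
    change YP σ (2 ^ t) (blkM hab _ _)
    refine ⟨?_, ?_⟩
    · rw [blkM_map _ _ _ _ (map_zero σ)]
      congr 1
      · ext i j
        exact (((x.1 : GL (Fin (2 ^ t)) (fixF σ)) : Matrix _ _ (fixF σ)) i j).2
      · ext i j
        exact (((x.2 : GL (Fin (n - 2 ^ t)) (fixF σ)) : Matrix _ _ (fixF σ)) i j).2
    · rw [← blkM_diagonal hab, blkM_mul, blkM_mul]
      congr 1
      · ext i j
        rw [mul_diagonal, diagonal_mul, mul_comm]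
      · ext i j
        rw [mul_diagonal, diagonal_mul, mul_comm]
  have hfin : Finite (GU n F q) := Cfsg.Agent.LieClassical.GUOrder.finite_GU n
  have hfin0 : ∀ k, Finite (GU k (fixF σ) q₀) := fun k => Cfsg.Agent.LieClassical.GUOrder.finite_GU k
  have hd : Nat.card (GU (2 ^ t) (fixF σ) q₀) * Nat.card (GU (n - 2 ^ t) (fixF σ) q₀) ∣
      Nat.card (YG n σ q (2 ^ t)) := by
    rw [← Nat.card_prod, Nat.card_congr (MonoidHom.ofInjective hf).toEquiv]
    exact Subgroup.card_dvd_of_le hfY
  have hmul := Subgroup.card_mul_index (YG n σ q (2 ^ t))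
  have hv := congrArg (padicValNat 2) hmul
  have hY0 : Nat.card (YG n σ q (2 ^ t)) ≠ 0 := Nat.card_pos.ne'
  have hI0 : (YG n σ q (2 ^ t)).index ≠ 0 := Subgroup.index_ne_zero_of_finite
  rw [padicValNat.mul hY0 hI0, val_card_GU2 hF hq n] at hv
  have hle2 := (padicValNat_dvd_iff_le (p := 2) hY0).1 ((pow_padicValNat_dvd).trans hd)
  rw [padicValNat.mul (Nat.card_pos.ne') (Nat.card_pos.ne'), val_card_GU2 hk hq0, val_card_GU2 hk hq0] at hle2
  have e1 : padicValNat 2 (q + 1) = padicValNat 2 (q₀ + 1) := by rw [hqm]; exact val_odd_add hq0 h1q hm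
  have e2 : padicValNat 2 (q - 1) = padicValNat 2 (q₀ - 1) := by rw [hqm]; exact val_odd_sub hq0 h1q hm
  rw [e1, e2, hn, ← vv2_add t hN, ← hn] at hv
  have h0 : padicValNat 2 (YG n σ q (2 ^ t)).index = 0 := by omega
  rw [← Nat.not_even_iff_odd, even_iff_two_dvd]
  intro hdv
  have := one_le_padicValNat_of_dvd hI0 hdv
  omega

end Main

end Cfsg.Agent.H486.RV
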